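import Cfsg.Agent.H876.L64.TFive
import Cfsg.Agent.H413.L64.TorZ

/-!
# S5915, T4: a nondegenerate subalgebra containing the Lie centraliser of `y` is stable under the torus of `y` (helper413)

In characteristic two the weights of the Cartan subalgebra `t₀` on the root vectors are pairwise distinct up to `r ↦ -r`
and non-zero.  So a subalgebra containing `t₀` is the sum of `t₀` and of subspaces of the `⟨e_r, e_{-r}⟩`, and if it is
nondegenerate these subspaces are `0` or the whole space.
-/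

set_option autoImplicit false
set_option linter.unusedSectionVars false
set_option maxRecDepth 100000

namespace Cfsg.Agent.H413.L64

open Cfsg Cfsg.Lie Cfsg.Lie.ChevalleyDatum
open Cfsg.Agent.ChevalleyStructure Cfsg.Agent.ChevalleyStructure.CoxeterGeom
  Cfsg.Agent.ChevalleyStructure.Elts Cfsg.Agent.ChevalleyStructure.CoxeterGeomTypes
open Cfsg.Agent.Tits.Roots Cfsg.Agent.Nodes.Reps Cfsg.Agent.Nodes.BNOf Cfsg.Agent.Nodes.RGDChev
  Cfsg.Agent.KFacts.RgdChevCoord
open Cfsg.Agent.BpExc.TorChev Cfsg.Agent.BpExc.FamInst Cfsg.Agent.H129.TorusChar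
open Cfsg.Agent.H942.E8Tab Cfsg.Agent.H944.RootVals Cfsg.Agent.H944.Kac
open Cfsg.Agent.ChevalleyStructure.RootVec (rt)
open Cfsg.Agent.ChevalleyStructure.Columns (car)
open Cfsg.Agent.H876.L64 (aK_mul aK_one aK_inv aK_inv' aK_add aK_smul aK_zero aK_tor aK_brK fix_iff h_br two_zero)
open Cfsg.Agent.H939.L64

namespace TFour

/-! ### tables -/

/-- the weights modulo 2 as numbers -/
def CL : List ℕ := [
  128, 192, 96, 48, 24, 14, 7, 6, 15, 25, 49, 97, 193, 129, 3, 11, 29, 53, 101, 197, 133, 20, 60, 108, 204, 140,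
  42, 122, 218, 154, 82, 242, 178, 162, 226, 66, 34, 114, 210, 146, 90, 250, 186, 170, 234, 74, 76, 236, 172, 188,
  252, 92, 148, 212, 116, 36, 69, 229, 165, 181, 245, 85, 157, 221, 125, 45, 139, 203, 107, 59, 19, 131, 195, 99,
  51, 27, 13, 4, 65, 225, 161, 177, 241, 81, 153, 217, 121, 41, 143, 207, 111, 63, 23, 134, 198, 102, 54, 30, 8,
  135, 199, 103, 55, 31, 9, 142, 206, 110, 62, 22, 152, 216, 120, 40, 176, 240, 80, 224, 160, 64, 64, 160, 224,
  80, 240, 176, 40, 120, 216, 152, 22, 62, 110, 206, 142, 9, 31, 55, 103, 199, 135, 8, 30, 54, 102, 198, 134, 23,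
  63, 111, 207, 143, 41, 121, 217, 153, 81, 241, 177, 161, 225, 65, 4, 13, 27, 51, 99, 195, 131, 19, 59, 107, 203,
  139, 45, 125, 221, 157, 85, 245, 181, 165, 229, 69, 36, 116, 212, 148, 92, 252, 188, 172, 236, 76, 74, 234, 170,
  186, 250, 90, 146, 210, 114, 34, 66, 226, 162, 178, 242, 82, 154, 218, 122, 42, 140, 204, 108, 60, 20, 133, 197,
  101, 53, 29, 11, 3, 129, 193, 97, 49, 25, 15, 6, 7, 14, 24, 48, 96, 192, 128]

/-- the root with a given weight -/
def PL : List ℕ := [
  240, 240, 240, 14, 77, 240, 7, 6, 98, 104, 240, 15, 240, 76, 5, 8, 240, 240, 240, 70, 21, 240, 109, 92, 4, 9,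
  240, 75, 240, 16, 97, 103, 240, 240, 36, 240, 55, 240, 240, 240, 113, 87, 26, 240, 240, 65, 240, 240, 3, 10,
  240, 74, 240, 17, 96, 102, 240, 240, 240, 69, 22, 240, 108, 91, 119, 78, 35, 240, 240, 56, 240, 240, 240, 240,
  45, 240, 46, 240, 240, 240, 116, 83, 30, 240, 240, 61, 240, 240, 240, 240, 40, 240, 51, 240, 240, 240, 2, 11,
  240, 73, 240, 18, 95, 101, 240, 240, 240, 68, 23, 240, 107, 90, 240, 240, 37, 240, 54, 240, 240, 240, 112, 86,
  27, 240, 240, 64, 240, 240, 0, 13, 240, 71, 240, 20, 93, 99, 240, 240, 240, 66, 25, 240, 105, 88, 240, 240, 39,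
  240, 52, 240, 240, 240, 110, 84, 29, 240, 240, 62, 240, 240, 118, 80, 33, 240, 240, 58, 240, 240, 240, 240, 43,
  240, 48, 240, 240, 240, 114, 81, 32, 240, 240, 59, 240, 240, 240, 240, 42, 240, 49, 240, 240, 240, 1, 12, 240,
  72, 240, 19, 94, 100, 240, 240, 240, 67, 24, 240, 106, 89, 240, 240, 38, 240, 53, 240, 240, 240, 111, 85, 28,
  240, 240, 63, 240, 240, 117, 79, 34, 240, 240, 57, 240, 240, 240, 240, 44, 240, 47, 240, 240, 240, 115, 82, 31,
  240, 240, 60, 240, 240, 240, 240, 41, 240, 50, 240, 240, 240]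

/-- the weight modulo 2 as a number -/
def code (s : ℕ) : ℕ := CL.getD s 0

theorem chkP : ((List.range 240).all fun s => decide (CL.getD s 0 ≠ 0 ∧ CL.getD s 0 < 256 ∧
    CL.getD (239 - s) 0 = CL.getD s 0) && (PL.getD (CL.getD s 0) 0 == s || 239 - PL.getD (CL.getD s 0) 0 == s)) = true := by
  decide +kernel

theorem chkR : ((List.range 8).all fun i => (chevE8.cartanSR.getD i #[]).toList.map (fun a => decide (a % 2 ≠ 0)) ==
    CL.map (fun c => c.testBit i)) = true := by decide +kernel

theorem lenCL : CL.length = 240 := by decide +kernel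

theorem par {i s : ℕ} (hi : i < 8) (hs : s < 240) : (code s).testBit i = decide (car chevE8 i s % 2 ≠ 0) := by
  have h := beq_iff_eq.1 (List.all_eq_true.1 chkR i (List.mem_range.2 hi))
  have h1 := congrArg (fun l : List Bool => l[s]?) h
  simp only [List.getElem?_map] at h1
  have h2 : CL[s]? = some (code s) := by
    unfold code
    rw [List.getD_eq_getElem?_getD, List.getElem?_eq_getElem (by rw [lenCL]; exact hs)]
    rfl
  rw [h2, Array.getElem?_toList] at h1
  unfold car
  rw [Array.getD_eq_getD_getElem?]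
  cases h3 : (chevE8.cartanSR.getD i #[])[s]? with
  | none => rw [h3] at h1; exact absurd h1 (by simp)
  | some a =>
    rw [h3] at h1
    exact (Option.some.inj h1).symm

theorem code_spec {s : ℕ} (hs : s < 240) : (code s ≠ 0 ∧ code s < 256 ∧ code (239 - s) = code s) ∧
    (PL.getD (code s) 0 = s ∨ 239 - PL.getD (code s) 0 = s) := by
  have h := List.all_eq_true.1 chkP s (List.mem_range.2 hs)
  rw [Bool.and_eq_true, Bool.or_eq_true, beq_iff_eq, beq_iff_eq] at h
  exact ⟨of_decide_eq_true h.1, h.2⟩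

theorem code_ne {s : ℕ} (hs : s < 240) : code s ≠ 0 := (code_spec hs).1.1

theorem code_eq {s s' : ℕ} (hs : s < 240) (hs' : s' < 240) (h : code s = code s') : s' = s ∨ s' = 239 - s := by
  have h1 := (code_spec hs).2
  have h2 := (code_spec hs').2
  rw [← h] at h2
  generalize PL.getD (code s) 0 = c at h1 h2
  omega

theorem nroots_eq : chevE8.nroots = 240 := by decide +kernel

theorem rt_neg' {s : ℕ} (hs : s < 240) (i : Fin 8) : rt chevE8 s i + rt chevE8 (239 - s) i = 0 := by
  have hs' : s < chevE8.nroots := by rw [nroots_eq]; exact hs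
  have h1 := Unitriangular.negIdx_add (Unitriangular.orderCheck_of_mem Cfsg.Agent.H876.L64.hE8) hs'
  rw [nroots_eq] at h1
  have h2 : chevE8.neg s = 239 - s := by
    rw [Cfsg.Agent.ChevalleyStructure.CommOrbit.neg_eq_getD]
    omega
  have h3 := congrFun (vec_neg e8T hs') i
  rw [h2, Pi.neg_apply] at h3
  have h4 : rt chevE8 (239 - s) i = - rt chevE8 s i := h3
  omega

theorem code_congr {s s' : ℕ} (hs : s < 240) (hs' : s' < 240)
    (h : ∀ i < 8, (car chevE8 i s % 2 = 0 ↔ car chevE8 i s' % 2 = 0)) : code s = code s' := by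
  refine Nat.eq_of_testBit_eq fun i => ?_
  by_cases hi : i < 8
  · rw [par hi hs, par hi hs', decide_eq_decide]
    exact not_congr (h i hi)
  · have h1 : ∀ {s : ℕ}, s < 240 → (code s).testBit i = false := fun {s} hs =>
      Nat.testBit_lt_two_pow ((code_spec hs).1.2.1.trans_le (Nat.pow_le_pow_right two_pos (not_lt.1 hi)))
    rw [h1 hs, h1 hs']

theorem code_zero {s : ℕ} (hs : s < 240) (h : ∀ i < 8, car chevE8 i s % 2 = 0) : code s = 0 := by
  refine Nat.eq_of_testBit_eq fun i => ?_
  rw [Nat.zero_testBit]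
  by_cases hi : i < 8
  · rw [par hi hs, decide_eq_false_iff_not, not_not]
    exact h i hi
  · exact Nat.testBit_lt_two_pow ((code_spec hs).1.2.1.trans_le (Nat.pow_le_pow_right two_pos (not_lt.1 hi)))

theorem car_neg {s i : ℕ} (hs : s < 240) (hi : i < 8) : car chevE8 i (239 - s) % 2 = 0 ↔ car chevE8 i s % 2 = 0 := by
  have h1 := par hi hs
  have h2 := par hi (s := 239 - s) (by omega)
  rw [(code_spec hs).1.2.2, h1, decide_eq_decide, not_iff_not] at h2
  exact h2.symm

/-! ### the weight projections -/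

/-- the weight in `KK` -/
noncomputable def cK (i : ℕ) : chevE8.Idx → KK := Sum.elim (fun _ => 0) (fun s : Fin chevE8.nroots => ((car chevE8 i s : ℤ) : KK))

theorem int_cast_KK (a : ℤ) : (a : KK) = if a % 2 = 0 then 0 else 1 := by
  have := charKK
  have h2 : (2 : KK) = 0 := two_zero
  split_ifs with h
  · obtain ⟨b, rfl⟩ := Int.dvd_of_emod_eq_zero h
    push_cast
    rw [h2, zero_mul]
  · obtain ⟨b, hb⟩ : ∃ b, a = 2 * b + 1 := ⟨a / 2, by omega⟩
    rw [hb]
    push_cast
    rw [h2, zero_mul, zero_add]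

theorem cK_or (i : ℕ) (k : chevE8.Idx) : cK i k = 0 ∨ cK i k = 1 := by
  rcases k with k | k
  · exact Or.inl rfl
  · show ((car chevE8 i k : ℤ) : KK) = 0 ∨ ((car chevE8 i k : ℤ) : KK) = 1
    rw [int_cast_KK]
    split_ifs
    · exact Or.inl rfl
    · exact Or.inr rfl

theorem fac (i : ℕ) (j k : chevE8.Idx) : (1 + cK i j + cK i k = 1 ∧ cK i j = cK i k) ∨
    (1 + cK i j + cK i k = 0 ∧ cK i j ≠ cK i k) := by
  have h2 : (1 : KK) + 1 = 0 := by rw [one_add_one_eq_two]; exact two_zero
  rcases cK_or i j with h | h <;> rcases cK_or i k with h' | h' <;> rw [h, h']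
  · left; simp
  · right; exact ⟨by rw [add_zero, h2], zero_ne_one⟩
  · right; exact ⟨by rw [add_zero, h2], one_ne_zero⟩
  · left; exact ⟨by rw [h2, zero_add], rfl⟩

/-- one step of the projection -/
noncomputable def stp (j : chevE8.Idx) (i : Fin chevE8.rank) (w : LK) : LK :=
  (1 + cK i j) • w + brK (Sum.elim (Pi.single i 1) 0) w

theorem stp_apply (j : chevE8.Idx) (i : Fin chevE8.rank) (w : LK) (k : chevE8.Idx) :
    stp j i w k = (1 + cK i j + cK i k) * w k := by
  unfold stp
  rw [Pi.add_apply, Pi.smul_apply, h_br, smul_eq_mul]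
  generalize 1 + cK i j = a
  rw [add_mul]
  congr 1
  rcases k with k | k
  · show (0 : KK) = 0 * _
    rw [zero_mul]
  · show (∑ i', (Pi.single i 1 : Fin chevE8.rank → KK) i' * ((car chevE8 i' k : ℤ) : KK)) * w (Sum.inr k) =
      ((car chevE8 i k : ℤ) : KK) * w (Sum.inr k)
    congr 1
    rw [Finset.sum_eq_single i]
    · rw [Pi.single_eq_same, one_mul]
    · intro b _ hb
      rw [Pi.single_eq_of_ne hb, zero_mul]
    · intro h
      exact absurd (Finset.mem_univ i) h

/-- the projection to the weight space of `j` -/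
noncomputable def prj (j : chevE8.Idx) (w : LK) : LK := (List.finRange chevE8.rank).foldr (stp j) w

theorem prj_apply_eq (j : chevE8.Idx) (w : LK) {k : chevE8.Idx} (h : ∀ i : Fin chevE8.rank, cK i j = cK i k) :
    prj j w k = w k := by
  unfold prj
  induction List.finRange chevE8.rank with
  | nil => rfl
  | cons a l ih =>
    rw [List.foldr_cons, stp_apply, ih]
    rcases fac a j k with h1 | h1
    · rw [h1.1, one_mul]
    · exact absurd (h a) h1.2

theorem prj_apply_ne (j : chevE8.Idx) (w : LK) {k : chevE8.Idx} {i : Fin chevE8.rank} (h : cK i j ≠ cK i k) :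
    prj j w k = 0 := by
  unfold prj
  have h0 : i ∈ List.finRange chevE8.rank := List.mem_finRange i
  revert h0
  induction List.finRange chevE8.rank with
  | nil => intro h0; exact absurd h0 List.not_mem_nil
  | cons a l ih =>
    intro h0
    rw [List.foldr_cons, stp_apply]
    rcases List.mem_cons.1 h0 with rfl | h0
    · rcases fac i j k with h1 | h1
      · exact absurd h1.2 h
      · rw [h1.1, zero_mul]
    · rw [ih h0, mul_zero]

/-- the index of the opposite root -/
def ng (s : Fin chevE8.nroots) : Fin chevE8.nroots := ⟨239 - s, by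
  have h := nroots_eq
  have := s.2
  omega⟩

theorem lt240 (s : Fin chevE8.nroots) : (s : ℕ) < 240 := by
  have h := nroots_eq
  have := s.2
  omega

theorem ng_ng (s : Fin chevE8.nroots) : ng (ng s) = s := by
  apply Fin.ext
  show 239 - (239 - (s : ℕ)) = s
  have := lt240 s
  omega

theorem ng_ne (s : Fin chevE8.nroots) : ng s ≠ s := by
  intro h
  have h1 : 239 - (s : ℕ) = s := congrArg Fin.val h
  have := lt240 s
  omega

theorem rank8 : chevE8.rank = 8 := by decide +kernel

/-- the weight of `-r` is the weight of `r` -/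
theorem cK_ng (i : Fin chevE8.rank) (s : Fin chevE8.nroots) : cK i (Sum.inr (ng s)) = cK i (Sum.inr s) := by
  show ((car chevE8 i (239 - (s : ℕ)) : ℤ) : KK) = ((car chevE8 i s : ℤ) : KK)
  rw [int_cast_KK, int_cast_KK (car chevE8 i s), if_congr (car_neg (lt240 s) (by have := i.2; have := rank8; omega)) rfl rfl]

/-- the weight spaces -/
theorem wt_eq {s : Fin chevE8.nroots} {k : chevE8.Idx} (h : ∀ i : Fin chevE8.rank, cK i (Sum.inr s) = cK i k) :
    k = Sum.inr s ∨ k = Sum.inr (ng s) := by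
  have key : ∀ a b : ℤ, ((a : KK) = (b : KK)) → (a % 2 = 0 ↔ b % 2 = 0) := by
    intro a b hab
    rw [int_cast_KK, int_cast_KK] at hab
    by_cases h1 : a % 2 = 0 <;> by_cases h2 : b % 2 = 0 <;> simp [h1, h2] at hab ⊢
  rcases k with k | k
  · exfalso
    refine code_ne (lt240 s) (code_zero (lt240 s) fun i hi => ?_)
    have h1 : ((car chevE8 i s : ℤ) : KK) = ((0 : ℤ) : KK) := by
      rw [Int.cast_zero]
      exact h ⟨i, by rw [rank8]; exact hi⟩
    exact (key _ _ h1).2 rfl
  · rcases code_eq (lt240 s) (lt240 k) (code_congr (lt240 s) (lt240 k) fun i hi =>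
      key _ _ (h ⟨i, by rw [rank8]; exact hi⟩)) with h1 | h1
    · left; rw [Fin.ext h1]
    · right; rw [show k = ng s from Fin.ext h1]

/-! ### the form -/

/-- the weight of the torus -/
def wt : chevE8.Idx → Fin 8 → ℤ := Sum.elim (fun _ _ => 0) (fun s i => rt chevE8 s i)

/-- the basis vectors -/
noncomputable def e (k : chevE8.Idx) : LK := Pi.single k 1

theorem exists_tor (i : Fin 8) {l : KK} (hl : l ≠ 0) : ∃ t ∈ TT chevE8 KK, ∀ k, aK t (e k) = l ^ wt k i • e k := by
  have hMC : IsMC fun x : Fin 8 → ℤ => l ^ x i := by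
    refine ⟨by rw [Pi.zero_apply, zpow_zero], fun a b => ?_⟩
    rw [Pi.add_apply, zpow_add₀ hl]
  obtain ⟨t, ht, hc⟩ := exists_cX e8T inv_E8 one_ne_zero hMC (fun j => ⟨_, pow_one _⟩)
  refine ⟨t, ht, fun k => ?_⟩
  funext k'
  rw [aK_tor ht, Pi.smul_apply, smul_eq_mul]
  unfold e
  by_cases h : k' = k
  · subst h
    rw [Pi.single_eq_same, mul_one, mul_one]
    rcases k' with k' | k'
    · show (1 : KK) = l ^ (0 : ℤ)
      rw [zpow_zero]
    · show cX e8T t (vec chevE8 8 k') = _
      rw [hc]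
      rfl
  · rw [Pi.single_eq_of_ne h, mul_zero, mul_zero]

section Form

variable {B : LK →ₗ[KK] LK →ₗ[KK] KK} (hB : ∀ (g : ↥(chevE8.group KK)) v w, B (aK g v) (aK g w) = B v w)

include hB in
theorem wt_of_ne {j k : chevE8.Idx} (h : B (e j) (e k) ≠ 0) (i : Fin 8) : wt j i + wt k i = 0 := by
  have := charKK
  by_contra hn
  obtain ⟨n, hn'⟩ : ∃ n : ℕ, n = 2 * (wt j i + wt k i).natAbs + 1 := ⟨_, rfl⟩
  obtain ⟨l, hl⟩ : ∃ l : KK, IsPrimitiveRoot l n := by
    have : NeZero ((n : ℕ) : KK) := ⟨by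
      intro h0
      have h1 := (CharP.cast_eq_zero_iff KK 2 n).1 h0
      omega⟩
    exact HasEnoughRootsOfUnity.exists_primitiveRoot KK n
  have hl0 : l ≠ 0 := hl.ne_zero (by omega)
  obtain ⟨t, ht, hc⟩ := exists_tor i hl0
  have h1 := hB t (e j) (e k)
  rw [hc, hc, map_smul, map_smul, LinearMap.smul_apply, smul_eq_mul, smul_eq_mul, ← mul_assoc, ← zpow_add₀ hl0] at h1
  have h2 : l ^ (wt k i + wt j i) = 1 := by
    have h3 : l ^ (wt k i + wt j i) * B (e j) (e k) = 1 * B (e j) (e k) := by rw [h1, one_mul]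
    exact mul_right_cancel₀ h h3
  rw [hl.zpow_eq_one_iff_dvd, add_comm] at h2
  have h3 := Nat.le_of_dvd (Int.natAbs_pos.2 hn) (Int.natCast_dvd.1 h2)
  omega

theorem eq_ng {s : Fin chevE8.nroots} {k : chevE8.Idx} (h : ∀ i, wt (Sum.inr s) i + wt k i = 0) : k = Sum.inr (ng s) := by
  have h1 : ∀ i : Fin 8, rt chevE8 (ng s) i = wt k i := fun i => by
    have h2 := rt_neg' (lt240 s) i
    have h3 : rt chevE8 s i + wt k i = 0 := h i
    have h4 : rt chevE8 (ng s) i = rt chevE8 (239 - s) i := rfl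
    omega
  rcases k with k | k
  · exfalso
    have hW : Finite CoxeterMatrix.E₈.Group := finite_W e8T CoxeterMatrix.E₈.toCoxeterSystem
    refine (isRoot_vec e8T CoxeterMatrix.E₈.toCoxeterSystem (ng s).2).ne_zero ?_
    funext i
    exact h1 i
  · congr 1
    apply Fin.ext
    refine (vec_inj e8T (ng s).2 k.2 ?_).symm
    funext i
    exact h1 i

end Form

end TFour

open TFour

section

variable {z t : ↥(chevE8.group KK)} {B : LK →ₗ[KK] LK →ₗ[KK] KK}

/-- the decomposition in the basis -/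
theorem TFour.sum_e (v : LK) : v = ∑ k, v k • e k := by
  funext j
  rw [Finset.sum_apply, Finset.sum_eq_single j]
  · rw [Pi.smul_apply, e, Pi.single_eq_same, smul_eq_mul, mul_one]
  · intro b _ hb
    rw [Pi.smul_apply, e, Pi.single_eq_of_ne hb.symm, smul_zero]
  · intro h
    exact absurd (Finset.mem_univ j) h

/-- the projection to a weight space -/
theorem TFour.prj_eq (s : Fin chevE8.nroots) (v : LK) :
    prj (Sum.inr s) v = v (Sum.inr s) • e (Sum.inr s) + v (Sum.inr (ng s)) • e (Sum.inr (ng s)) := by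
  funext k
  rw [Pi.add_apply, Pi.smul_apply, Pi.smul_apply, e, e, smul_eq_mul, smul_eq_mul]
  have hne : (Sum.inr s : chevE8.Idx) ≠ Sum.inr (ng s) := fun h => ng_ne s (Sum.inr.inj h).symm
  by_cases h : ∀ i : Fin chevE8.rank, cK i (Sum.inr s) = cK i k
  · rw [prj_apply_eq _ _ h]
    rcases wt_eq h with rfl | rfl
    · rw [Pi.single_eq_same, Pi.single_eq_of_ne hne, mul_one, mul_zero, add_zero]
    · rw [Pi.single_eq_same, Pi.single_eq_of_ne hne.symm, mul_one, mul_zero, zero_add]
  · push Not at h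
    obtain ⟨i, hi⟩ := h
    rw [prj_apply_ne _ _ hi, Pi.single_eq_of_ne, Pi.single_eq_of_ne, mul_zero, mul_zero, add_zero]
    · rintro rfl
      exact hi (cK_ng i s).symm
    · rintro rfl
      exact hi rfl

/-- a nondegenerate subalgebra containing the Cartan subalgebra contains every root vector in its support -/
theorem TFour.mem_e (hB : ∀ (g : ↥(chevE8.group KK)) v w, B (aK g v) (aK g w) = B v w) (hsym : ∀ v w, B v w = B w v)
    {A : Submodule KK LK} (h0 : ∀ i, e (Sum.inl i) ∈ A) (hbr : ∀ a ∈ A, ∀ b ∈ A, brK a b ∈ A)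
    (hnd : ∀ a ∈ A, (∀ b ∈ A, B a b = 0) → a = 0) {v : LK} (hv : v ∈ A) (k : chevE8.Idx) (hk : v k ≠ 0) : e k ∈ A := by
  have h0' : ∀ i : Fin chevE8.rank, (Sum.elim (Pi.single i 1) 0 : LK) ∈ A := by
    intro i
    have h1 : (Sum.elim (Pi.single i 1) 0 : LK) = e (Sum.inl i) := by
      funext j
      rcases j with j | j
      · show (Pi.single i 1 : Fin chevE8.rank → KK) j = e (Sum.inl i) (Sum.inl j)
        unfold e
        by_cases h : j = i
        · subst h
          rw [Pi.single_eq_same, Pi.single_eq_same]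
        · rw [Pi.single_eq_of_ne h, Pi.single_eq_of_ne (fun h' => h (Sum.inl.inj h'))]
      · show (0 : KK) = e (Sum.inl i) (Sum.inr j)
        unfold e
        rw [Pi.single_eq_of_ne (by simp)]
    rw [h1]
    exact h0 i
  have hprj : ∀ j, ∀ w ∈ A, prj j w ∈ A := by
    intro j w hw
    unfold prj
    induction List.finRange chevE8.rank with
    | nil => exact hw
    | cons a l ih =>
      rw [List.foldr_cons]
      exact A.add_mem (A.smul_mem _ ih) (hbr _ (h0' a) _ ih)
  rcases k with k | s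
  · exact h0 k
  set p : chevE8.Idx := Sum.inr s with hp
  set m : chevE8.Idx := Sum.inr (ng s) with hm
  have hBp : ∀ k, k ≠ m → B (e p) (e k) = 0 := by
    intro k hk1
    by_contra h
    exact hk1 (eq_ng (wt_of_ne hB h))
  have hBm : ∀ k, k ≠ p → B (e m) (e k) = 0 := by
    intro k hk1
    by_contra h
    have h1 := eq_ng (wt_of_ne hB h)
    rw [ng_ng] at h1
    exact hk1 h1
  have hpm : p ≠ m := fun h => ng_ne s (Sum.inr.inj h).symm
  have hu : v p • e p + v m • e m ∈ A := by rw [← TFour.prj_eq]; exact hprj _ _ hv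
  have hune : v p • e p + v m • e m ≠ 0 := by
    intro h
    have h1 := congrFun h p
    rw [Pi.add_apply, Pi.smul_apply, Pi.smul_apply, e, e, Pi.single_eq_same, Pi.single_eq_of_ne hpm, smul_zero,
      add_zero, smul_eq_mul, mul_one] at h1
    exact hk h1
  obtain ⟨w, hw, hwne⟩ : ∃ w ∈ A, B (v p • e p + v m • e m) w ≠ 0 := by
    by_contra h
    push Not at h
    exact hune (hnd _ hu h)
  have hw' : w p • e p + w m • e m ∈ A := by rw [← TFour.prj_eq]; exact hprj _ _ hw
  have h1 : B (v p • e p + v m • e m) w = (v p * w m + v m * w p) * B (e p) (e m) := by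
    have h2 : B (e p) w = w m * B (e p) (e m) := by
      conv_lhs => rw [TFour.sum_e w]
      rw [map_sum, Finset.sum_eq_single m]
      · rw [map_smul, smul_eq_mul]
      · intro b _ hb
        rw [map_smul, hBp b hb, smul_zero]
      · intro h
        exact absurd (Finset.mem_univ m) h
    have h3 : B (e m) w = w p * B (e p) (e m) := by
      conv_lhs => rw [TFour.sum_e w]
      rw [map_sum, Finset.sum_eq_single p]
      · rw [map_smul, smul_eq_mul, hsym (e m)]
      · intro b _ hb
        rw [map_smul, hBm b hb, smul_zero]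
      · intro h
        exact absurd (Finset.mem_univ p) h
    rw [map_add, map_smul, map_smul, LinearMap.add_apply, LinearMap.smul_apply, LinearMap.smul_apply, h2, h3,
      smul_eq_mul, smul_eq_mul]
    ring
  rw [h1] at hwne
  have hd : v p * w m + v m * w p ≠ 0 := left_ne_zero_of_mul hwne
  have h4 : w m • (v p • e p + v m • e m) + v m • (w p • e p + w m • e m) = (v p * w m + v m * w p) • e p := by
    have h5 : w m • (v p • e p + v m • e m) + v m • (w p • e p + w m • e m) =
        (v p * w m + v m * w p) • e p + (2 : KK) • ((v m * w m) • e m) := by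
      module
    rw [h5, two_zero, zero_smul, add_zero]
  have h6 := A.add_mem (A.smul_mem (w m) hu) (A.smul_mem (v m) hw')
  rw [h4] at h6
  exact (A.smul_mem_iff hd).1 h6

/-- **T4** (both types): a non-degenerate subalgebra containing `L^y` is stable under `g` -/
theorem T4 {y g : E2} {z t t' : ↥(chevE8.group KK)}
    (ht : t ∈ Cfsg.Agent.KFacts.RgdChevCoord.TT chevE8 KK) (ht' : t' ∈ Cfsg.Agent.KFacts.RgdChevCoord.TT chevE8 KK)
    (hy : em y = z * t * z⁻¹) (hg : em g = z * t' * z⁻¹) (B : LK →ₗ[KK] LK →ₗ[KK] KK)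
    (hB : ∀ (g : ↥(chevE8.group KK)) v w, B (aK g v) (aK g w) = B v w) (hsym : ∀ v w, B v w = B w v)
    (_hnd : ∀ v, (∀ w, B v w = 0) → v = 0) (A : Submodule KK LK) (hA : ∀ v, rE y v = v → v ∈ A)
    (hbr : ∀ a ∈ A, ∀ b ∈ A, brK a b ∈ A) (hAnd : ∀ a ∈ A, (∀ b ∈ A, B a b = 0) → a = 0) :
    ∀ v ∈ A, rE g v ∈ A := by
  let A' : Submodule KK LK :=
    { carrier := {v | aK z v ∈ A}
      add_mem' := fun {a b} ha hb => by
        show aK z (a + b) ∈ A
        rw [aK_add]; exact A.add_mem ha hb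
      zero_mem' := by
        show aK z 0 ∈ A
        rw [aK_zero]; exact A.zero_mem
      smul_mem' := fun c a ha => by
        show aK z (c • a) ∈ A
        rw [aK_smul]; exact A.smul_mem _ ha }
  have hmem : ∀ v, v ∈ A' ↔ aK z v ∈ A := fun v => Iff.rfl
  have h0 : ∀ i, e (Sum.inl i) ∈ A' := by
    intro i
    rw [hmem]
    refine hA _ ((fix_iff hy _).2 ?_)
    rw [aK_inv']
    funext k
    rw [aK_tor ht]
    rcases k with k | k
    · rw [Sum.elim_inl, one_mul]
    · unfold e
      rw [Pi.single_eq_of_ne (by simp), mul_zero]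
  have hbr' : ∀ a ∈ A', ∀ b ∈ A', brK a b ∈ A' := by
    intro a ha b hb
    rw [hmem, aK_brK]
    exact hbr _ ha _ hb
  have hnd' : ∀ a ∈ A', (∀ b ∈ A', B a b = 0) → a = 0 := by
    intro a ha h
    have h1 : aK z a = 0 := by
      refine hAnd _ ha fun b hb => ?_
      have h2 := h (aK z⁻¹ b) (by rw [hmem, aK_inv]; exact hb)
      rw [← hB z, aK_inv] at h2
      exact h2
    have h2 := congrArg (aK z⁻¹) h1
    rwa [aK_inv', aK_zero] at h2
  intro v hv
  have hv' : aK z⁻¹ v ∈ A' := by rw [hmem, aK_inv]; exact hv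
  have key : aK t' (aK z⁻¹ v) ∈ A' := by
    rw [TFour.sum_e (aK t' (aK z⁻¹ v))]
    refine A'.sum_mem fun k _ => ?_
    by_cases hk : aK z⁻¹ v k = 0
    · rw [aK_tor ht', hk, mul_zero, zero_smul]
      exact A'.zero_mem
    · exact A'.smul_mem _ (TFour.mem_e hB hsym h0 hbr' hnd' hv' k hk)
  rw [rE_apply, hg, aK_mul, aK_mul]
  exact (hmem _).1 key

end

end Cfsg.Agent.H413.L64
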